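import Cfsg.Agent.H393.BF.Row

/-!
# S4555/S4559: the Baby Monster, `p = 3` (helper316)

`x` of order 3 and fixed rank 0 of the Monster (class 3B), `t` an involution commuting with `x`, not conjugate to `z`
(class 2A).  `O_{3'}(C(x) ∩ C(t)) = ⟨t⟩`, and a normal 3-subgroup of `C(x) ∩ C(t)` has a solvable centralizer.

* `cent_P` : the elements of `C(z) ∩ C(z t) ∩ C(P)` are `1`, `t` modulo the kernel (`Q0 ≤ Suz` is self-centralizing);
* `main` : the elements of `C(t)` centralizing `C_N(t)`;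
* `exists_pair` : an involution not conjugate to `z` commuting with `x`;
* `baby`, `b_three` : `VOrdP 3` for groups isomorphic to `B` with more than one 3-block.
-/

set_option autoImplicit false
set_option maxRecDepth 100000

namespace Cfsg.Agent.H316.VZ.BThree

open Subgroup Cfsg Cfsg.Agent.Lib Cfsg.Agent.BpTab Cfsg.Agent.BpSpor
open Cfsg.Agent.BpSpor.BThree
open Cfsg.Agent.LThreeBX
open scoped commutatorElement

universe u v

section abs

variable {D : Type u} [Group D] [Finite D] {z : D} {X : Type v} [Group X]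
  {φ : ↥(centralizer ({z} : Set D)) →* X}

/-- normal subgroups of odd order are `3`-groups -/
theorem isPGroup_three (H : Zer z φ) (h : BpSpor.MThree.Dat φ) (hD : Nat.card D ∣ BpSpor.MThree.nM) {N : Subgroup D}
    (hN : N.Normal) (hNo : Odd (Nat.card ↥N)) : IsPGroup 3 ↥N := by
  refine IsPGroup.iff_card.2 ⟨_, Nat.eq_prime_pow_of_unique_prime_dvd Nat.card_pos.ne' fun {d} hd hdN => ?_⟩
  by_contra h3
  refine H828.BThree.core_not_dvd H h hD hN hNo hd ?_ hdN
  have h2 : d ≠ 2 := by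
    rintro rfl
    exact (Nat.not_even_iff_odd.2 hNo) (even_iff_two_dvd.2 hdN)
  have h4 : d ≠ 4 := by
    rintro rfl
    exact absurd hd (by norm_num)
  have := hd.two_le
  omega

omit [Finite D] in
/-- **`C(z) ∩ C(z t) ∩ C(P)` modulo the kernel.** -/
theorem cent_P (hs : Function.Surjective φ) (hK : Abs.Ker φ) (hz2 : z * z = 1) (e : X ≃* Spor.Suz)
    (h7 : ∀ t g : ↥(centralizer ({z} : Set D)), t * t = 1 → φ t ≠ 1 → g ^ 7 = 1 → g * t = t * g → g = 1)
    {t : ↥(centralizer ({z} : Set D))} (htt : t * t = 1) (ht1 : φ t ≠ 1)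
    (hnc : ∀ g : ↥(centralizer ({z} : Set D)), g * t * g⁻¹ ≠ Abs.zA * t)
    {P : Subgroup D} (hP : Zer.Two z (z * t) P) (hP2 : IsPGroup 2 ↥P) (hPne : ∃ p ∈ P, p ≠ 1 ∧ p ≠ z * t)
    {s : ↥(centralizer ({z} : Set D))} (hsP : ∀ p ∈ P, p * (s : D) = s * p) : φ s = 1 ∨ φ s = φ t := by
  have hfin : Finite Spor.Suz := CTwoTab.Suz.finSuz
  rcases CTwoTab.Suz.classes (t := e (φ t)) (by rw [← map_mul, ← map_mul, htt, map_one, map_one])
    (fun h => ht1 (e.injective (by rw [h, map_one]))) with hc | hc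
  swap
  · exact (LThreeBX.Abs.not_e0 φ hs hK hz2 e htt (fun g hg hgt => h7 t g htt ht1 hg hgt) hc).elim
  obtain ⟨c, hc⟩ := isConj_iff.1 hc
  obtain ⟨F, hF⟩ : ∃ F : ↥(centralizer ({z} : Set D)) →* Spor.Suz, F = (e.trans (MulAut.conj c⁻¹)).toMonoidHom.comp φ :=
    ⟨_, rfl⟩
  have hFs : Function.Surjective F := by
    rw [hF]
    exact (e.trans (MulAut.conj c⁻¹)).surjective.comp hs
  have hF1 : ∀ a b, F a = F b ↔ φ a = φ b := by
    intro a b
    rw [hF]
    exact (e.trans (MulAut.conj c⁻¹)).injective.eq_iff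
  have hFt : F t = SuzThree.CentA.z0 := by
    rw [hF]
    show c⁻¹ * e (φ t) * c⁻¹⁻¹ = _
    rw [← hc]
    group
  -- the elements commuting with `t` modulo the kernel
  have hcom : ∀ g : ↥(centralizer ({z} : Set D)), F g * SuzThree.CentA.z0 = SuzThree.CentA.z0 * F g →
      (g : D) * (z * t) = (z * t) * g := by
    intro g hg
    have h1 : φ g * φ t = φ t * φ g := by
      rw [← map_mul, ← map_mul, ← hF1, map_mul, map_mul, hFt, hg]
    rcases LThreeBX.Abs.conj_cases φ hK htt h1 with h2 | h2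
    · have h3 : (g : D) * t = t * g := congrArg Subtype.val (mul_inv_eq_iff_eq_mul.1 h2)
      have h4 : (g : D) * z = z * g := mem_centralizer_singleton_iff.1 g.2
      rw [← mul_assoc, h4, mul_assoc, h3, ← mul_assoc]
    · exact absurd h2 (hnc g)
  -- the image of `P`
  have hPz : P ≤ centralizer ({z} : Set D) := fun p hp => mem_centralizer_singleton_iff.2 (hP.comm_z p hp)
  let W : Subgroup Spor.Suz := (P.subgroupOf (centralizer ({z} : Set D))).map F
  have hmW : ∀ p (hp : p ∈ P), F ⟨p, hPz hp⟩ ∈ W := fun p hp => mem_map_of_mem F (mem_subgroupOf.2 hp)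
  have hW2 : IsPGroup 2 ↥W := (hP2.of_equiv (subgroupOfEquivOfLe hPz).symm).map F
  have hpt : ∀ p (hp : p ∈ P), (⟨p, hPz hp⟩ : ↥(centralizer ({z} : Set D))) * t = t * ⟨p, hPz hp⟩ := by
    intro p hp
    apply Subtype.ext
    have h1 : Commute p z := hP.comm_z p hp
    have h2 : Commute p (z * t) := hP.comm_u p hp
    have h3 : (t : D) = z⁻¹ * (z * t) := by group
    show p * (t : D) = t * p
    rw [h3]
    exact (h1.inv_right.mul_right h2).eq
  have hWz : ∀ w ∈ W, w * SuzThree.CentA.z0 = SuzThree.CentA.z0 * w := by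
    rintro _ ⟨p, hp, rfl⟩
    have h1 : p * t = t * p := hpt (p : D) (mem_subgroupOf.1 hp)
    rw [← hFt, ← map_mul, ← map_mul, h1]
  have hWn : ∀ a : Spor.Suz, a * SuzThree.CentA.z0 = SuzThree.CentA.z0 * a → ∀ w ∈ W, a * w * a⁻¹ ∈ W := by
    rintro a ha _ ⟨p, hp, rfl⟩
    obtain ⟨g, rfl⟩ := hFs a
    refine ⟨g * p * g⁻¹, mem_subgroupOf.2 ?_, by rw [map_mul, map_mul, map_inv]⟩
    exact hP.norm (g : D) (hcom g ha) p (mem_subgroupOf.1 hp)
  have hWQ : W ≤ SuzThree.QZero.Q0 := KFacts.SuzLarge.hR hW2 hWz hWn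
  have hWe : W = SuzThree.QZero.Q0 := by
    rcases KFacts.SuzLarge.irr W hWQ hWn with h1 | h1
    · exfalso
      obtain ⟨p, hp, hp1, hpu⟩ := hPne
      -- all elements of `P` are central in `P`
      have h2 : ∀ q (hq : q ∈ P), ∀ r ∈ P, q * r = r * q := by
        intro q hq r hr
        have key : ∀ k : ↥(centralizer ({z} : Set D)), φ k = 1 → (k : D) * r = r * k := fun k hk =>
          (congrArg Subtype.val (hK.cen k hk ⟨r, hPz hr⟩)).symm
        rcases h1 _ (hmW q hq) with h3 | h3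
        · exact key ⟨q, hPz hq⟩ ((hF1 _ 1).1 (by rw [h3, map_one]) |>.trans (map_one φ))
        · have h4 : φ (⟨q, hPz hq⟩ * t) = 1 := by
            rw [← hFt, hF1] at h3
            rw [map_mul, h3, ← map_mul, htt, map_one]
          have h5 := key _ h4
          have h6 : (t : D) * r = r * t := (congrArg Subtype.val (hpt r hr)).symm
          have h7 : (t : D) * t = 1 := congrArg Subtype.val htt
          have h8 : q * (t : D) * r = r * (q * t) := h5
          calc q * r = q * ((t : D) * t) * r := by rw [h7, mul_one]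
            _ = q * t * (t * r) := by group
            _ = (q * t * r) * t := by rw [h6]; group
            _ = r * q * (t * t) := by rw [h8]; group
            _ = r * q := by rw [h7, mul_one]
      rcases hP.cent p hp (h2 p hp) with h3 | h3
      · exact hp1 h3
      · exact hpu h3
    · exact h1
  have h1 : F s = 1 ∨ F s = SuzThree.CentA.z0 := by
    refine KFacts.SuzR.centralizer_R fun y hy => ?_
    rw [← hWe] at hy
    obtain ⟨p, hp, rfl⟩ := hy
    have h2 : p * s = s * p := Subtype.ext (hsP (p : D) (mem_subgroupOf.1 hp))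
    rw [← map_mul, ← map_mul, h2]
  rcases h1 with h1 | h1
  · left
    rw [← map_one φ, ← hF1, h1, map_one]
  · right
    rw [← hF1, h1, hFt]

/-- **The elements of `C(t)` which centralize `C_N(t)`.** -/
theorem main (FT : ∀ (K : Type u) [Group K] [Finite K], Odd (Nat.card K) → Group.IsSolvable K) (H : Zer z φ)
    {N : Subgroup D} (hN : N.Normal) (hN3 : IsPGroup 3 ↥N) (hsup : N ⊔ centralizer ({z} : Set D) = ⊤)
    (hz : ∃ a ∈ N, a * z ≠ z * a) {t : D} (htz : t * z = z * t) (htt : t * t = 1)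
    (ht : φ ⟨t, mem_centralizer_singleton_iff.2 htz⟩ ≠ 1) {P : Subgroup D} (hP : Zer.Two z (z * t) P)
    (hS : ∀ s : ↥(centralizer ({z} : Set D)), (∀ p ∈ P, p * (s : D) = s * p) →
      φ s = 1 ∨ φ s = φ ⟨t, mem_centralizer_singleton_iff.2 htz⟩) :
    Group.IsSolvable ↥(centralizer ({t} : Set D) ⊓ centralizer ((N ⊓ centralizer ({t} : Set D) : Subgroup D) : Set D)) ∧
      ∀ k ∈ centralizer ({t} : Set D) ⊓ centralizer ((N ⊓ centralizer ({t} : Set D) : Subgroup D) : Set D),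
        ∃ j : ℕ, k ^ 3 ^ j = 1 ∨ (k * t) ^ 3 ^ j = 1 := by
  have hNo : Odd (Nat.card ↥N) := by
    obtain ⟨m, hm⟩ := IsPGroup.iff_card.1 hN3
    rw [hm]
    exact Odd.pow (by decide)
  obtain ⟨a, ha, hat, hau⟩ := H.not_comm_t hN hNo hz (t := ⟨t, mem_centralizer_singleton_iff.2 htz⟩) htt ht
  set C := centralizer ({t} : Set D) with hC
  have hmC : ∀ {g : D}, g ∈ C ↔ g * t = t * g := mem_centralizer_singleton_iff
  -- decomposition of `C(t)`
  have hdec : ∀ k ∈ C, ∃ n ∈ N, ∃ c ∈ centralizer ({z} : Set D), n ∈ C ∧ c ∈ C ∧ k = n * c := by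
    intro k hk
    have hg : k ∈ N ⊔ centralizer ({z} : Set D) := by rw [hsup]; trivial
    obtain ⟨n, hn, c, hc, rfl⟩ := mem_sup_of_normal_left.1 hg
    have hcz : c * z = z * c := mem_centralizer_singleton_iff.1 hc
    obtain ⟨w, hw⟩ : ∃ w, w = c * t * c⁻¹ * t⁻¹ := ⟨_, rfl⟩
    have h1 : w ∈ N := by
      have h3 := hmC.1 hk
      have h4 : w = n⁻¹ * (t * n * t⁻¹) := by
        calc w = n⁻¹ * ((n * c) * t) * c⁻¹ * t⁻¹ := by rw [hw]; group
          _ = n⁻¹ * (t * (n * c)) * c⁻¹ * t⁻¹ := by rw [h3]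
          _ = n⁻¹ * (t * n * t⁻¹) := by group
      rw [h4]
      exact N.mul_mem (N.inv_mem hn) (hN.conj_mem n hn t)
    have hwz : w * z = z * w := by
      have h5 : Commute c z := hcz
      have h6 : Commute t z := htz
      rw [hw]
      exact (((h5.mul_left h6).mul_left h5.inv_left).mul_left h6.inv_left).eq
    obtain ⟨hwc, hw3⟩ := H.odd_center hN hNo h1 hwz
    have hwt : c * t * c⁻¹ = w * t := by rw [hw]; group
    have hw2 : w * w = 1 := by
      have h5 : t * w = w * t := mem_center_iff.1 hwc t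
      have h6 : (w * t) * (w * t) = 1 := by
        rw [← hwt]
        calc c * t * c⁻¹ * (c * t * c⁻¹) = c * (t * t) * c⁻¹ := by group
          _ = 1 := by rw [htt]; group
      calc w * w = w * w * (t * t) := by rw [htt, mul_one]
        _ = w * (w * t) * t := by group
        _ = w * (t * w) * t := by rw [h5]
        _ = 1 := by rw [← h6]; group
    have hw1 : w = 1 := by
      rw [pow_succ, pow_two, hw2, one_mul] at hw3
      exact hw3
    rw [hw1, one_mul] at hwt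
    have hcC : c ∈ C := hmC.2 (mul_inv_eq_iff_eq_mul.1 hwt)
    refine ⟨n, hn, c, hc, ?_, hcC, rfl⟩
    have := C.mul_mem hk (C.inv_mem hcC)
    rwa [mul_inv_cancel_right] at this
  -- the centraliser of `C_N(t)` in `C(t)`
  let B : Subgroup D := N ⊓ C
  let T0 : Subgroup D := C ⊓ centralizer (B : Set D)
  have hBn : ∀ g ∈ C, ∀ b ∈ B, g * b * g⁻¹ ∈ B := fun g hg b hb =>
    ⟨hN.conj_mem b hb.1 g, C.mul_mem (C.mul_mem hg hb.2) (C.inv_mem hg)⟩
  have hT0n : ∀ g ∈ C, ∀ k ∈ T0, g * k * g⁻¹ ∈ T0 := by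
    intro g hg k hk
    refine ⟨C.mul_mem (C.mul_mem hg hk.1) (C.inv_mem hg), mem_centralizer_iff.2 fun b hb => ?_⟩
    have h1 := mem_centralizer_iff.1 hk.2 (g⁻¹ * b * g) (by
      have := hBn g⁻¹ (C.inv_mem hg) b hb
      rwa [inv_inv] at this)
    calc b * (g * k * g⁻¹) = g * ((g⁻¹ * b * g) * k) * g⁻¹ := by group
      _ = g * (k * (g⁻¹ * b * g)) * g⁻¹ := by rw [h1]
      _ = g * k * g⁻¹ * b := by group
  let S1 : Subgroup D := cap z N T0 hN ⊓ C
  -- involutions of `S1` centralize `B`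
  have key : ∀ y : D, y * y = 1 → y ∈ S1 → ∀ b ∈ B, b * y = y * b := by
    rintro y hyy ⟨⟨-, n, hn, hnT⟩, hyC⟩ b hb
    have hnC : n ∈ C := by
      have := C.mul_mem hnT.1 (C.inv_mem hyC)
      rwa [mul_inv_cancel_right] at this
    have hno : Odd (orderOf n⁻¹) := by
      rw [orderOf_inv]
      have h2 : orderOf n ∣ Nat.card ↥N := by
        rw [← Subgroup.orderOf_mk n hn]
        exact orderOf_dvd_natCard _
      exact hNo.of_dvd_nat h2
    refine act_odd (A := B) (u := y) hyy hno (fun b hb => hBn _ (C.inv_mem hnC) b hb) ?_ hb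
    intro b hb
    have h3 : (n * y) * b = b * (n * y) := (mem_centralizer_iff.1 hnT.2 b hb).symm
    calc y * b * y⁻¹ = n⁻¹ * ((n * y) * b) * y⁻¹ := by group
      _ = n⁻¹ * (b * (n * y)) * y⁻¹ := by rw [h3]
      _ = n⁻¹ * b * n⁻¹⁻¹ := by group
  have haB : a ∈ B := ⟨ha, hmC.2 hat⟩
  have hu : z * t ∉ S1 := by
    intro h1
    refine hau (key _ ?_ h1 a haB)
    calc z * t * (z * t) = z * (t * z) * t := by group
      _ = (z * z) * (t * t) := by rw [htz]; group
      _ = 1 := by rw [H.sq, htt, one_mul]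
  have hzS : z ∉ S1 := by
    intro h1
    have h2 : Commute a z := key _ H.sq h1 a haB
    have h3 : Commute a t := hat
    exact hau (h2.mul_right h3).eq
  have hPC : ∀ q ∈ P, q ∈ C := by
    intro q hq
    have h1 : Commute q z := hP.comm_z q hq
    have h2 : Commute q (z * t) := hP.comm_u q hq
    have h3 : t = z⁻¹ * (z * t) := by group
    refine hmC.2 ?_
    rw [h3]
    exact (h1.inv_right.mul_right h2).eq
  have hS1n : ∀ q ∈ P, ∀ s ∈ S1, q * s * q⁻¹ ∈ S1 := by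
    rintro q hq s ⟨⟨hs1, n, hn, hns⟩, hs2⟩
    have hqC := hPC q hq
    refine ⟨⟨?_, q * n * q⁻¹, hN.conj_mem n hn q, ?_⟩, C.mul_mem (C.mul_mem hqC hs2) (C.inv_mem hqC)⟩
    · have hqz : q ∈ centralizer ({z} : Set D) := mem_centralizer_singleton_iff.2 (hP.comm_z q hq)
      exact mul_mem (mul_mem hqz hs1) (inv_mem hqz)
    · have := hT0n q hqC _ hns
      convert this using 1
      group
  -- `S1 ∩ P = 1`
  have hSP : ∀ q ∈ P, q ∈ S1 → q = 1 := by
    intro q hq hqS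
    by_contra hq1
    by_cases hall : ∀ r ∈ P, q * r = r * q
    · rcases hP.cent q hq hall with h1 | h1
      · exact hq1 h1
      · exact hu (h1 ▸ hqS)
    · push Not at hall
      obtain ⟨r, hr, hne⟩ := hall
      rcases hP.comm q hq r hr with h1 | h1
      · exact hne (commutatorElement_eq_one_iff_mul_comm.1 h1)
      · apply hu
        rw [← h1, commutatorElement_def]
        have h2 := S1.mul_mem hqS (hS1n r hr _ (S1.inv_mem hqS))
        convert h2 using 1
        group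
  have hS1P : ∀ s ∈ S1, ∀ q ∈ P, q * s = s * q := by
    intro s hs q hq
    have hsz : Commute s z := mem_centralizer_singleton_iff.1 hs.1.1
    have hst : Commute s t := hmC.1 hs.2
    have hsu : s * (z * t) = z * t * s := (hsz.mul_right hst).eq
    have h1 : s * q * s⁻¹ * q⁻¹ ∈ P := P.mul_mem (hP.norm s hsu q hq) (P.inv_mem hq)
    have h2 : s * q * s⁻¹ * q⁻¹ ∈ S1 := by
      have := S1.mul_mem hs (hS1n q hq _ (S1.inv_mem hs))
      convert this using 1
      group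
    have h3 := hSP _ h1 h2
    rw [mul_inv_eq_one, mul_inv_eq_iff_eq_mul] at h3
    exact h3.symm
  have htS : t ∈ S1 := by
    refine ⟨⟨mem_centralizer_singleton_iff.2 htz, 1, N.one_mem, ?_⟩, hmC.2 rfl⟩
    rw [one_mul]
    exact ⟨hmC.2 rfl, mem_centralizer_iff.2 fun b hb => hmC.1 hb.2⟩
  -- the kernel
  have hker : ∀ s (hs : s ∈ S1), φ ⟨s, hs.1.1⟩ = 1 → s ∈ center D ∧ s ^ 3 = 1 := by
    intro s hs h1
    have h6 := H.ker.six _ (MonoidHom.mem_ker.2 h1)
    have h3 : (⟨s, hs.1.1⟩ : ↥(centralizer ({z} : Set D))) ^ 3 = 1 := by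
      rcases H.ker.two _ (φ.ker.pow_mem (MonoidHom.mem_ker.2 h1) 3) (by rw [← pow_add]; exact h6) with h2 | h2
      · exact h2
      · exfalso
        have h4 : s ^ 3 = z := congrArg Subtype.val h2
        exact hzS (h4 ▸ S1.pow_mem hs 3)
    exact ⟨H.cen _ (MonoidHom.mem_ker.2 h1) h3, congrArg Subtype.val h3⟩
  have hS1 : ∀ s ∈ S1, (s ∈ center D ∧ s ^ 3 = 1) ∨ (s * t ∈ center D ∧ (s * t) ^ 3 = 1) := by
    intro s hs
    rcases hS ⟨s, hs.1.1⟩ (hS1P s hs) with h1 | h1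
    · exact Or.inl (hker s hs h1)
    · right
      refine hker (s * t) (S1.mul_mem hs htS) ?_
      have h2 : φ (⟨s, hs.1.1⟩ * ⟨t, mem_centralizer_singleton_iff.2 htz⟩) = 1 := by
        rw [map_mul, h1, ← map_mul]
        have h3 : (⟨t, mem_centralizer_singleton_iff.2 htz⟩ : ↥(centralizer ({z} : Set D))) *
          ⟨t, mem_centralizer_singleton_iff.2 htz⟩ = 1 := Subtype.ext htt
        rw [h3, map_one]
      exact h2
  have hS1c : ∀ s ∈ S1, ∀ g ∈ C, s * g = g * s := by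
    intro s hs g hg
    rcases hS1 s hs with ⟨h1, -⟩ | ⟨h1, -⟩
    · exact ((mem_center_iff.1 h1) g).symm
    · have h2 : Commute (s * t) g := ((mem_center_iff.1 h1) g).symm
      have h3 : Commute t g := (hmC.1 hg).symm
      have h4 : s = (s * t) * t := by rw [mul_assoc, htt, mul_one]
      rw [h4]
      exact (h2.mul_left h3).eq
  refine ⟨?_, ?_⟩
  · refine solvable_of_image FT (S := S1) hN hNo ?_ ?_
    · exact Group.isSolvable_of_comm fun a b => Subtype.ext (hS1c a a.2 b b.2.2)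
    · intro k hk
      obtain ⟨n, hn, c, hc, hnC, hcC, rfl⟩ := hdec k hk.1
      exact ⟨c, ⟨⟨hc, n, hn, hk⟩, hcC⟩, n, hn, rfl⟩
  · intro k hk
    obtain ⟨n, hn, c, hc, hnC, hcC, rfl⟩ := hdec k hk.1
    have hcS : c ∈ S1 := ⟨⟨hc, n, hn, hk⟩, hcC⟩
    obtain ⟨j, hj⟩ := hN3 ⟨n, hn⟩
    have hj' : n ^ 3 ^ j = 1 := congrArg Subtype.val hj
    have hj2 : n ^ 3 ^ (j + 1) = 1 := by rw [pow_succ, pow_mul, hj', one_pow]
    have h3 : ∀ c : D, c ^ 3 = 1 → c ^ 3 ^ (j + 1) = 1 := by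
      intro c hc
      rw [pow_succ', pow_mul, hc, one_pow]
    refine ⟨j + 1, ?_⟩
    rcases hS1 c hcS with ⟨h1, h2⟩ | ⟨h1, h2⟩
    · left
      have h4 : Commute n c := (mem_center_iff.1 h1) n
      rw [h4.mul_pow, hj2, h3 c h2, one_mul]
    · right
      have h4 : Commute n (c * t) := (mem_center_iff.1 h1) n
      rw [mul_assoc, h4.mul_pow, hj2, h3 _ h2, one_mul]

/-- **`C_D(t)`**: a normal 3-subgroup with solvable centralizer, and the normal `3'`-subgroups are in `⟨t⟩`. -/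
theorem cent_t (FT : ∀ (K : Type u) [Group K] [Finite K], Odd (Nat.card K) → Group.IsSolvable K) (H : Zer z φ)
    {N : Subgroup D} (hN : N.Normal) (hN3 : IsPGroup 3 ↥N) (hsup : N ⊔ centralizer ({z} : Set D) = ⊤)
    (hz : ∃ a ∈ N, a * z ≠ z * a) {t : D} (htz : t * z = z * t) (htt : t * t = 1)
    (ht : φ ⟨t, mem_centralizer_singleton_iff.2 htz⟩ ≠ 1) {P : Subgroup D} (hP : Zer.Two z (z * t) P)
    (hS : ∀ s : ↥(centralizer ({z} : Set D)), (∀ p ∈ P, p * (s : D) = s * p) →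
      φ s = 1 ∨ φ s = φ ⟨t, mem_centralizer_singleton_iff.2 htz⟩) :
    ∃ R : Subgroup ↥(centralizer ({t} : Set D)), R.Normal ∧ IsPGroup 3 ↥R ∧
      Group.IsSolvable ↥(centralizer (R : Set ↥(centralizer ({t} : Set D)))) ∧
      ∀ V : Subgroup ↥(centralizer ({t} : Set D)), V.Normal → (Nat.card ↥V).Coprime 3 → ∀ y ∈ V, (y : D) = 1 ∨
        (y : D) = t := by
  have h3 : Fact (Nat.Prime 3) := ⟨Nat.prime_three⟩
  obtain ⟨hs, hk⟩ := main FT H hN hN3 hsup hz htz htt ht hP hS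
  set C := centralizer ({t} : Set D) with hC
  have hmC : ∀ {g : D}, g ∈ C ↔ g * t = t * g := mem_centralizer_singleton_iff
  have hBn' : ((N ⊓ C : Subgroup D).subgroupOf C).Normal :=
    ⟨fun b hb g => mem_subgroupOf.2 ⟨hN.conj_mem _ (mem_subgroupOf.1 hb).1 g,
      C.mul_mem (C.mul_mem g.2 (mem_subgroupOf.1 hb).2) (C.inv_mem g.2)⟩⟩
  have hB3 : IsPGroup 3 ↥((N ⊓ C : Subgroup D).subgroupOf C) :=
    (hN3.to_le (inf_le_left : N ⊓ C ≤ N)).of_equiv (subgroupOfEquivOfLe (inf_le_right : N ⊓ C ≤ C)).symm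
  refine ⟨(N ⊓ C : Subgroup D).subgroupOf C, hBn', hB3, ?_, ?_⟩
  · let f : ↥(centralizer (((N ⊓ C : Subgroup D).subgroupOf C : Subgroup ↥C) : Set ↥C)) →*
        ↥(C ⊓ centralizer ((N ⊓ C : Subgroup D) : Set D)) :=
      (C.subtype.comp (centralizer (((N ⊓ C : Subgroup D).subgroupOf C : Subgroup ↥C) : Set ↥C)).subtype).codRestrict _
        (fun g => by
          refine ⟨g.1.2, mem_centralizer_iff.2 fun b hb => ?_⟩
          exact congrArg Subtype.val (mem_centralizer_iff.1 g.2 (⟨b, hb.2⟩ : ↥C) (mem_subgroupOf.2 hb)))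
    have hf : Function.Injective f := by
      intro a b hab
      exact Subtype.ext (Subtype.ext (congrArg (fun g : ↥(C ⊓ centralizer ((N ⊓ C : Subgroup D) : Set D)) => (g : D))
        hab))
    exact Group.isSolvable_of_isSolvable_injective hf
  · intro V hV hVc y hy
    have hdis : V ⊓ (N ⊓ C : Subgroup D).subgroupOf C = ⊥ := by
      obtain ⟨n, hn⟩ := IsPGroup.iff_card.1 hB3
      refine (Subgroup.disjoint_of_coprime_natCard ?_).eq_bot
      rw [hn]
      exact Nat.Coprime.pow_right n hVc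
    have hyT : (y : D) ∈ C ⊓ centralizer ((N ⊓ C : Subgroup D) : Set D) := by
      refine ⟨y.2, mem_centralizer_iff.2 fun b hb => ?_⟩
      obtain ⟨b', hb'⟩ : ∃ b' : ↥C, (b' : D) = b := ⟨⟨b, hb.2⟩, rfl⟩
      have hb'' : b' ∈ (N ⊓ C : Subgroup D).subgroupOf C := mem_subgroupOf.2 (hb' ▸ hb)
      have h1 : y * b' * y⁻¹ * b'⁻¹ ∈ V ⊓ (N ⊓ C : Subgroup D).subgroupOf C := by
        refine ⟨?_, Subgroup.mul_mem _ (hBn'.conj_mem b' hb'' y) (Subgroup.inv_mem _ hb'')⟩
        have h2 : y * b' * y⁻¹ * b'⁻¹ = y * (b' * y⁻¹ * b'⁻¹) := by group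
        rw [h2]
        exact V.mul_mem hy (hV.conj_mem _ (V.inv_mem hy) b')
      rw [hdis, mem_bot, mul_inv_eq_one, mul_inv_eq_iff_eq_mul] at h1
      have h2 := congrArg Subtype.val h1
      rw [← hb']
      exact h2.symm
    have hyo : (orderOf (y : D)).Coprime 3 := by
      have h1 : orderOf (y : D) ∣ Nat.card ↥V := by
        rw [Subgroup.orderOf_coe, ← Subgroup.orderOf_mk y hy]
        exact orderOf_dvd_natCard _
      exact Nat.Coprime.coprime_dvd_left h1 hVc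
    obtain ⟨j, hj | hj⟩ := hk _ hyT
    · left
      exact orderOf_eq_one_iff.1 (Nat.Coprime.eq_one_of_dvd (Nat.Coprime.pow_right j hyo) (orderOf_dvd_of_pow_eq_one hj))
    · right
      have hyt : Commute (y : D) t := hmC.1 y.2
      have h1 : ((y : D) * t) ^ (2 * orderOf (y : D)) = 1 := by
        rw [hyt.mul_pow, mul_comm 2, pow_mul, pow_orderOf_eq_one, one_pow, one_mul, mul_comm, pow_mul, pow_two, htt,
          one_pow]
      have h2 : (2 * orderOf (y : D)).Coprime (3 ^ j) :=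
        Nat.Coprime.pow_right j (Nat.Coprime.mul_left (by norm_num) hyo)
      have h4 : orderOf ((y : D) * t) ∣ 1 := by
        rw [← h2]
        exact Nat.dvd_gcd (orderOf_dvd_of_pow_eq_one h1) (orderOf_dvd_of_pow_eq_one hj)
      have h5 := orderOf_eq_one_iff.1 (Nat.dvd_one.1 h4)
      rw [mul_eq_one_iff_eq_inv] at h5
      rw [h5]
      exact inv_eq_of_mul_eq_one_left htt

end abs

end Cfsg.Agent.H316.VZ.BThree

namespace Cfsg.Agent.H316.VZ.BThree

open Cfsg Cfsg.Agent.MonsterU Cfsg.Agent.LThree Cfsg.Agent.LThreeMB Cfsg.Agent.LThreeB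
open Cfsg.Agent.MonsterU.Ch
open Cfsg.Agent.MonsterU.Lam2 (L2)
open Cfsg.Spor (Co1)
open Cfsg.Agent.MonsterX.KSide Cfsg.Agent.MonsterX.KLift Cfsg.Agent.MonsterU.TwoQ
open Subgroup (centralizer zpowers mem_centralizer_singleton_iff mem_centralizer_iff)
open Cfsg.Agent.LThreeBX.Abs (Ker zA)
open Cfsg.Agent.BpSpor.BThree (zer exists_root exists_pair fr_six two isPGroup_PP exists_not_comm PP mem_PP)

universe u v

/-- elements of `P` -/
theorem exists_mem_PP {G : Type u} [Group G] {Q : Subgroup G} {z : G} {eta : G → L2}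
    {pi : Subgroup.centralizer ({z} : Set G) →* Co1} (h : Chart Q z eta pi) {x x' : centralizer ({z} : Set G)}
    (hx' : orderOf x' = 3) (hfr' : fr (pi x') = 2 ^ 6) {g : G} (hgx' : g * (x' : G) * g⁻¹ = x)
    {u : ↥(centralizer ({(x : G)} : Set G))} (hg : g * z * g⁻¹ = u) : ∃ p ∈ PP Q g (x : G), p ≠ 1 ∧ p ≠ u := by
  have hx3 : x' ^ 3 = 1 := by rw [← hx', pow_orderOf_eq_one]
  obtain ⟨v, hv, hv0⟩ : ∃ v : L2, pi x' • v = v ∧ v ≠ 0 := by
    by_contra hcon
    push Not at hcon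
    have h1 : fr (pi x') = 1 := by
      rw [fr, Nat.card_eq_one_iff_unique]
      exact ⟨⟨fun a b => Subtype.ext ((hcon a a.2).trans (hcon b b.2).symm)⟩, ⟨⟨0, smul_zero _⟩⟩⟩
    rw [h1] at hfr'
    norm_num at hfr'
  obtain ⟨q, hq, hqv⟩ := h.eta_surj v
  have hqx : (x' : G) * q = q * x' := (comm_iff_fix h hx3 hq).2 (by rw [hqv, hv])
  refine ⟨⟨g * q * g⁻¹, mem_centralizer_singleton_iff.2 ?_⟩, ?_, ?_, ?_⟩
  · rw [← hgx']
    calc g * q * g⁻¹ * (g * (x' : G) * g⁻¹) = g * (q * x') * g⁻¹ := by group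
      _ = g * (x' * q) * g⁻¹ := by rw [hqx]
      _ = _ := by group
  · show g⁻¹ * (g * q * g⁻¹) * g ∈ Q
    have h1 : g⁻¹ * (g * q * g⁻¹) * g = q := by group
    rwa [h1]
  · intro h1
    apply hv0
    have h2 : g * q * g⁻¹ = 1 := congrArg Subtype.val h1
    rw [← hqv]
    refine (h.eta_zero q hq).2 (Or.inl ?_)
    calc q = g⁻¹ * (g * q * g⁻¹) * g := by group
      _ = 1 := by rw [h2]; group
  · intro h1
    apply hv0
    have h2 : g * q * g⁻¹ = u := congrArg Subtype.val h1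
    rw [← hqv]
    refine (h.eta_zero q hq).2 (Or.inr ?_)
    calc q = g⁻¹ * (g * q * g⁻¹) * g := by group
      _ = g⁻¹ * (g * z * g⁻¹) * g := by rw [h2, hg]
      _ = z := by group

variable {G : Type u} {V P W : Type*} [Group G] [AddCommGroup V] [Module ℚ V]
  [DistribMulAction G V] [SMulCommClass G ℚ V] [Group P] [AddCommGroup W] [Module ℚ W]
  {M : KS G V P W} {θ : leechLattice → P}

/-- **`C(x) ∩ C(t)`**, `x` of fixed rank 0, `t` not conjugate to `z`. -/
theorem zero (FT : ∀ (K : Type u) [Group K] [Finite K], Odd (Nat.card K) → Group.IsSolvable K) [Finite G]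
    [IsSimpleGroup G] (L : Lift M θ) (hc : KChart.Cent M) (I : CoOne) (ht : TrNe M.z (KChart.pi hc))
    (hp : HasPair M.z (KChart.pi hc)) (hG : Nat.card G = BpSpor.MThree.nM)
    {x : centralizer ({M.z} : Set G)} (hx : orderOf x = 3)
    (hfr : fr (KChart.pi hc x) = 1) {t : G} (hto : orderOf t = 2) (htx : t * (x : G) = x * t)
    (hn : ∀ g, g * t * g⁻¹ ≠ M.z) :
    ∃ T : ↥(centralizer ({(x : G)} : Set G)), T * T = 1 ∧ T ≠ 1 ∧ (∀ d : G, d * (T : G) * d⁻¹ ≠ M.z) ∧
      ∃ R : Subgroup ↥(centralizer ({T} : Set ↥(centralizer ({(x : G)} : Set G)))), R.Normal ∧ IsPGroup 3 ↥R ∧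
        Group.IsSolvable ↥(centralizer (R : Set ↥(centralizer ({T} : Set ↥(centralizer ({(x : G)} : Set G)))))) ∧
        ∀ V : Subgroup ↥(centralizer ({T} : Set ↥(centralizer ({(x : G)} : Set G)))), V.Normal →
          (Nat.card ↥V).Coprime 3 → ∀ y ∈ V, (y : ↥(centralizer ({(x : G)} : Set G))) = 1 ∨
            (y : ↥(centralizer ({(x : G)} : Set G))) = T := by
  have : Fact (Nat.Prime 3) := ⟨Nat.prime_three⟩
  have h := KChart.chart L hc
  have hx3 : x ^ 3 = 1 := by rw [← hx, pow_orderOf_eq_one]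
  have hS := I.suz _ (orderOf_pi h hx) hfr
  have H := zer h ht hx hfr hS (exists_root L hc hx hfr)
  obtain ⟨e⟩ := hS
  have hDat := BpSpor.MThree.dat_zero L hc ht hx hfr ⟨e⟩
  have h7 := hDat.no7
  have htt : t * t = 1 := by rw [← pow_two, ← hto, pow_orderOf_eq_one]
  have ht1 : t ≠ 1 := by
    rintro rfl
    rw [orderOf_one] at hto
    norm_num at hto
  let tD : ↥(centralizer ({(x : G)} : Set G)) := ⟨t, mem_centralizer_singleton_iff.2 htx⟩
  obtain ⟨d, hd⟩ := LThreeBX.Abs.exists_conj_comm H.two H.iso (t := tD) (by rw [← Subgroup.orderOf_coe]; exact hto)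
  obtain ⟨τ, hτ⟩ : ∃ τ : ↥(centralizer ({zD x} : Set ↥(centralizer ({(x : G)} : Set G)))),
    (τ : ↥(centralizer ({(x : G)} : Set G))) = d * tD * d⁻¹ := ⟨⟨_, mem_centralizer_singleton_iff.2 hd⟩, rfl⟩
  have hτ' : τ.1.1 = (d : G) * t * (d : G)⁻¹ := congrArg Subtype.val hτ
  have hττ : τ * τ = 1 := by
    apply Subtype.ext
    apply Subtype.ext
    show τ.1.1 * τ.1.1 = 1
    rw [hτ']
    calc (d : G) * t * (d : G)⁻¹ * ((d : G) * t * (d : G)⁻¹) = (d : G) * (t * t) * (d : G)⁻¹ := by group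
      _ = 1 := by rw [htt]; group
  have hφτ : toXX (KChart.pi hc) x τ ≠ 1 := by
    intro h1
    rcases H.ker.two τ h1 hττ with h2 | h2
    · apply ht1
      have h3 : (d : G) * t * (d : G)⁻¹ = 1 := by rw [← hτ', h2]; rfl
      calc t = (d : G)⁻¹ * ((d : G) * t * (d : G)⁻¹) * d := by group
        _ = 1 := by rw [h3]; group
    · apply hn d
      rw [← hτ', h2]
      rfl
  obtain ⟨u, g, huz, hxu, hne, hg⟩ := exists_pair h hp hx hfr
  have huu : u * u = 1 := by
    rw [← hg]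
    calc g * M.z * g⁻¹ * (g * M.z * g⁻¹) = g * (M.z * M.z) * g⁻¹ := by group
      _ = 1 := by rw [h.large.z_sq]; group
  have hu1 : u ≠ 1 := by
    intro h1
    apply h.large.z_ne
    calc M.z = g⁻¹ * (g * M.z * g⁻¹) * g := by group
      _ = 1 := by rw [hg, h1]; group
  let uD : ↥(centralizer ({(x : G)} : Set G)) := ⟨u, mem_centralizer_singleton_iff.2 hxu.symm⟩
  let υ : ↥(centralizer ({zD x} : Set ↥(centralizer ({(x : G)} : Set G)))) :=
    ⟨uD, mem_centralizer_singleton_iff.2 (Subtype.ext huz)⟩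
  have hυυ : υ * υ = 1 := Subtype.ext (Subtype.ext huu)
  have hφυ : toXX (KChart.pi hc) x υ ≠ 1 := by
    intro h1
    rcases H.ker.two υ h1 hυυ with h2 | h2
    · exact hu1 (congrArg (fun q : ↥(centralizer ({zD x} : Set ↥(centralizer ({(x : G)} : Set G)))) => q.1.1) h2)
    · exact hne (congrArg (fun q : ↥(centralizer ({zD x} : Set ↥(centralizer ({(x : G)} : Set G)))) => q.1.1) h2)
  -- both are over `z0`
  have hz0 : ∀ y : ↥(centralizer ({zD x} : Set ↥(centralizer ({(x : G)} : Set G)))), y * y = 1 →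
      toXX (KChart.pi hc) x y ≠ 1 → IsConj SuzThree.CentA.z0 (e (toXX (KChart.pi hc) x y)) := by
    intro y hyy hy1
    rcases CTwoTab.Suz.classes (t := e (toXX (KChart.pi hc) x y)) (by rw [← map_mul, ← map_mul, hyy, map_one, map_one])
      (fun h1 => hy1 (e.map_eq_one_iff.1 h1)) with h1 | h1
    · exact h1
    · exact (LThreeBX.Abs.not_e0 (toXX (KChart.pi hc) x) H.surj H.ker H.sq e hyy
        (fun g hg hgt => h7 y g hyy hy1 hg hgt) h1).elim
  obtain ⟨c, hcc⟩ := isConj_iff.1 ((hz0 τ hττ hφτ).symm.trans (hz0 υ hυυ hφυ))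
  obtain ⟨b, hb⟩ := H.surj (e.symm c)
  have hbt : toXX (KChart.pi hc) x (b * τ * b⁻¹) = toXX (KChart.pi hc) x υ := by
    apply e.injective
    rw [map_mul, map_mul, map_inv, map_mul, map_mul, map_inv, hb, e.apply_symm_apply, hcc]
  have hυi : υ⁻¹ = υ := inv_eq_of_mul_eq_one_left hυυ
  obtain ⟨k, hk⟩ : ∃ k, k = b * τ * b⁻¹ * υ := ⟨_, rfl⟩
  have hkk : k ∈ (toXX (KChart.pi hc) x).ker := by
    rw [MonoidHom.mem_ker, hk, map_mul, hbt, ← map_mul, hυυ, map_one]
  have hbk : b * τ * b⁻¹ = k * υ := by rw [hk, mul_assoc _ υ υ, hυυ, mul_one]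
  have hk2 : k * k = 1 := by
    have h1 : (b * τ * b⁻¹) * (b * τ * b⁻¹) = 1 := by
      calc (b * τ * b⁻¹) * (b * τ * b⁻¹) = b * (τ * τ) * b⁻¹ := by group
        _ = 1 := by rw [hττ]; group
    have h2 : υ * k = k * υ := H.ker.cen k hkk υ
    calc k * k = k * k * (υ * υ) := by rw [hυυ, mul_one]
      _ = k * (k * υ) * υ := by group
      _ = k * (υ * k) * υ := by rw [h2]
      _ = (k * υ) * (k * υ) := by group
      _ = 1 := by rw [← hbk, h1]
  have hkz : k = zA := by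
    rcases H.ker.two k hkk hk2 with h1 | h1
    · exfalso
      rw [h1, one_mul] at hbk
      have h2 : b.1.1 * ((d : G) * t * (d : G)⁻¹) *
          b.1.1⁻¹ = u := by
        rw [← hτ']
        exact congrArg (fun q : ↥(centralizer ({zD x} : Set ↥(centralizer ({(x : G)} : Set G)))) => q.1.1) hbk
      apply hn (g⁻¹ * b.1.1 * d)
      calc g⁻¹ * b.1.1 * d * t *
            (g⁻¹ * b.1.1 * d)⁻¹ =
          g⁻¹ * (b.1.1 * ((d : G) * t * (d : G)⁻¹) *
            b.1.1⁻¹) * g := by group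
        _ = M.z := by rw [h2, ← hg]; group
    · exact h1
  -- `t₂`
  obtain ⟨t₂, ht₂⟩ : ∃ t₂, t₂ = b * τ * b⁻¹ := ⟨_, rfl⟩
  have hzz : (zA : ↥(centralizer ({zD x} : Set ↥(centralizer ({(x : G)} : Set G))))) * zA = 1 := Subtype.ext H.sq
  have hυt : υ = zA * t₂ := by
    rw [ht₂, hbk, hkz, ← mul_assoc, hzz, one_mul]
  have huD : uD = zD x * (t₂ : ↥(centralizer ({(x : G)} : Set G))) := congrArg Subtype.val hυt
  have ht₂t₂ : t₂ * t₂ = 1 := by
    rw [ht₂]
    calc (b * τ * b⁻¹) * (b * τ * b⁻¹) = b * (τ * τ) * b⁻¹ := by group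
      _ = 1 := by rw [hττ]; group
  have htz₂ : (t₂ : ↥(centralizer ({(x : G)} : Set G))) * zD x = zD x * t₂ := mem_centralizer_singleton_iff.1 t₂.2
  have htt₂ : (t₂ : ↥(centralizer ({(x : G)} : Set G))) * t₂ = 1 := congrArg Subtype.val ht₂t₂
  have hφ₂' : toXX (KChart.pi hc) x t₂ ≠ 1 := by rw [ht₂, hbt]; exact hφυ
  have hφ₂ : toXX (KChart.pi hc) x ⟨(t₂ : ↥(centralizer ({(x : G)} : Set G))),
      mem_centralizer_singleton_iff.2 htz₂⟩ ≠ 1 := hφ₂'
  -- the transported element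
  have hx'z : g⁻¹ * (x : G) * g ∈ centralizer ({M.z} : Set G) := by
    rw [mem_centralizer_singleton_iff]
    calc g⁻¹ * (x : G) * g * M.z = g⁻¹ * (x * (g * M.z * g⁻¹)) * g := by group
      _ = g⁻¹ * ((g * M.z * g⁻¹) * x) * g := by rw [hg, hxu]
      _ = M.z * (g⁻¹ * x * g) := by group
  let x' : centralizer ({M.z} : Set G) := ⟨g⁻¹ * (x : G) * g, hx'z⟩
  have hgx' : g * (x' : G) * g⁻¹ = x := by
    show g * (g⁻¹ * (x : G) * g) * g⁻¹ = x
    group
  obtain ⟨hx'o, hx'f⟩ := fr_six h ht I.ranks (fun x hx h2 => ⟨(good_of_inputs.{u} h I hx h2).simple,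
    (good_of_inputs.{u} h I hx h2).nc⟩) hx hfr huz hxu hne hg (x' := x') hgx'
  have hgu : g * M.z * g⁻¹ = (uD : G) := hg
  have hPP := two h ht hx hfr (u := uD) hgu huz
  have hPne := exists_mem_PP h (x := x) hx'o hx'f hgx' (u := uD) hgu
  rw [huD] at hPP hPne
  have hneD : ∃ d : ↥(centralizer ({(x : G)} : Set G)), d * zD x ≠ zD x * d := by
    obtain ⟨d, hdx, hdz⟩ := exists_not_comm h hDat hx hfr hx'o hx'f hg hgx' hne huz hxu.symm
    exact ⟨⟨d, mem_centralizer_singleton_iff.2 hdx⟩, fun h1 => hdz (congrArg Subtype.val h1)⟩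
  -- not conjugate to `z`
  have hTn : ∀ d' : G, d' * t₂.1.1 * d'⁻¹ ≠ M.z := by
    intro d' hd'
    apply hn (d' * b.1.1 * d)
    have h1 : t₂.1.1 = b.1.1 * ((d : G) * t * (d : G)⁻¹) * b.1.1⁻¹ := by
      rw [ht₂, ← hτ']
      rfl
    rw [h1] at hd'
    refine Eq.trans ?_ hd'
    group
  have hnc : ∀ a : ↥(centralizer ({zD x} : Set ↥(centralizer ({(x : G)} : Set G)))), a * t₂ * a⁻¹ ≠ zA * t₂ := by
    intro a ha
    rw [← hυt] at ha
    have h1 : a.1.1 * t₂.1.1 * a.1.1⁻¹ = u :=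
      congrArg (fun q : ↥(centralizer ({zD x} : Set ↥(centralizer ({(x : G)} : Set G)))) => q.1.1) ha
    apply hTn (g⁻¹ * a.1.1)
    calc g⁻¹ * a.1.1 * t₂.1.1 * (g⁻¹ * a.1.1)⁻¹ = g⁻¹ * (a.1.1 * t₂.1.1 * a.1.1⁻¹) * g := by group
      _ = M.z := by rw [h1, ← hg]; group
  -- `N`
  obtain ⟨N, hN, hNo, hsup⟩ := LThreeMB.ZStar.exists_core H.two H.iso
  have hD : Nat.card ↥(centralizer ({(x : G)} : Set G)) ∣ BpSpor.MThree.nM := hG ▸ Subgroup.card_subgroup_dvd_card _
  have hN3 := isPGroup_three H hDat hD hN hNo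
  have hzN : ∃ a ∈ N, a * zD x ≠ zD x * a := by
    by_contra hcon
    push Not at hcon
    obtain ⟨d, hd⟩ := hneD
    apply hd
    have h1 : d ∈ N ⊔ centralizer ({zD x} : Set ↥(centralizer ({(x : G)} : Set G))) := by rw [hsup]; trivial
    obtain ⟨n, hn, c, hc, rfl⟩ := Subgroup.mem_sup_of_normal_left.1 h1
    have h2 : Commute n (zD x) := hcon n hn
    have h3 : Commute c (zD x) := mem_centralizer_singleton_iff.1 hc
    exact (h2.mul_left h3).eq
  refine ⟨t₂, htt₂, fun h1 => hφ₂' ?_, hTn, ?_⟩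
  · have h2 : t₂ = 1 := Subtype.ext h1
    rw [h2, map_one]
  · exact cent_t FT H hN hN3 hsup hzN htz₂ htt₂ hφ₂ hPP fun s hs =>
      cent_P H.surj H.ker H.sq e h7 ht₂t₂ hφ₂' hnc hPP (isPGroup_PP h g x) hPne hs

end Cfsg.Agent.H316.VZ.BThree

namespace Cfsg.Agent.H316.VZ.BThree

open Cfsg Cfsg.Agent.MonsterU Cfsg.Agent.LThree Cfsg.Agent.LThreeMB Cfsg.Agent.MonsterU.Ch
open Cfsg.Agent.MonsterU.Lam2 (L2 IsType mk_smul)
open Cfsg.Agent.LThreeMB.Fix Cfsg.Agent.LThreeCo1.Ranks Cfsg.Agent.SporadicStructure.Co0Matrix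
open Cfsg.Spor (Co1)
open Subgroup (centralizer mem_centralizer_singleton_iff)

universe u

/-- a fixed vector of type 2 of an element of fixed rank 6 -/
theorem exists_vec : ∃ v : L2, IsType 2 v ∧ (QuotientGroup.mk LThreeCo1.Class.c6 : Co1) • v = v := by
  have hL : latB v6 = true := by decide +kernel
  refine ⟨vv v6 ⟨0, by decide⟩, ?_, ?_⟩
  · have h1 := (lat_spec hL (List.get_mem v6 ⟨0, by decide⟩)).1
    refine ⟨el (v6.get ⟨0, by decide⟩).1, ?_, rfl⟩
    rw [el_coe h1, Cfsg.Agent.Leech.Basic.sqNorm_eq_dotInt, dotInt_vec _ _ (length_of_leechB h1).le]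
    decide +kernel
  · rw [mk_smul]
    exact smul_vv rep6 hL (by decide +kernel) _

/-- **an involution not conjugate to `z` commuting with an element of order 3 and fixed rank 0** -/
theorem exists_inv {G : Type u} [Group G] {Q : Subgroup G} {z : G} {eta : G → L2}
    {pi : Subgroup.centralizer ({z} : Set G) →* Co1} [Finite G] [IsSimpleGroup G] (h : Chart Q z eta pi) (I : CoOne)
    (ht : TrNe z pi) (hp : HasPair z pi) : ∃ (x : centralizer ({z} : Set G)) (t : G), orderOf x = 3 ∧ fr (pi x) = 1 ∧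
      orderOf t = 2 ∧ t * (x : G) = x * t ∧ ∀ g, g * t * g⁻¹ ≠ z := by
  obtain ⟨x', hx', hπ⟩ := KPair.exists_order_three h BpSpor.BThree.Co.order_mk6
  have hx3 : x' ^ 3 = 1 := by rw [← hx', pow_orderOf_eq_one]
  obtain ⟨v, hv2, hv⟩ := exists_vec
  obtain ⟨q, hq, hqv⟩ := h.eta_surj v
  have hqx : (x' : G) * q = q * x' := (comm_iff_fix h hx3 hq).2 (by rw [hqv, hπ, hv])
  have hqq : q * q = 1 := (h.sq_one hq).2 (by rw [hqv]; exact CloseLat.qf_two hv2)
  have hq0 : eta q ≠ 0 := by rw [hqv]; exact CloseLat.ne_zero_of_two hv2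
  have hq1 : q ≠ 1 := fun h1 => hq0 ((h.eta_zero q hq).2 (Or.inl h1))
  have hqz : q ≠ z := fun h1 => hq0 ((h.eta_zero q hq).2 (Or.inr h1))
  have hqn : ∀ g, g * q * g⁻¹ ≠ z := by
    intro g hg
    have h1 : g⁻¹ * z * g⁻¹⁻¹ = q := by rw [← hg]; group
    refine Fused.not_type_two h (g := g⁻¹) (by rw [h1]; exact hq) (by rw [h1]; exact hqz) ?_
    rw [h1, hqv]
    exact hv2
  obtain ⟨x₀, u, g, hx₀, hfr₀, huz, hux, hne, hg⟩ := hp
  obtain ⟨k, hk⟩ := conj_six h ht I.ranks I.six (fun x hx h2 => ⟨(good_of_inputs.{u} h I hx h2).simple,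
    (good_of_inputs.{u} h I hx h2).nc⟩) hx₀ hfr₀ huz hux hne hg hx' (by rw [hπ]; exact fr_c6)
  refine ⟨x₀, k * q * k⁻¹, hx₀, hfr₀, ?_, ?_, ?_⟩
  · refine orderOf_eq_prime ?_ fun h1 => hq1 ?_
    · rw [pow_two]
      calc k * q * k⁻¹ * (k * q * k⁻¹) = k * (q * q) * k⁻¹ := by group
        _ = 1 := by rw [hqq]; group
    · calc q = k⁻¹ * (k * q * k⁻¹) * k := by group
        _ = 1 := by rw [h1]; group
  · rw [← hk]
    calc k * q * k⁻¹ * (k * (x' : G) * k⁻¹) = k * (q * x') * k⁻¹ := by group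
      _ = k * (x' * q) * k⁻¹ := by rw [hqx]
      _ = _ := by group
  · intro a ha
    refine hqn (a * k) ?_
    rw [← ha]
    group

end Cfsg.Agent.H316.VZ.BThree

namespace Cfsg.Agent.H316.VZ.BThree

open Cfsg Cfsg.Agent.MonsterX Cfsg.Agent.MonsterX.InstData Cfsg.Agent.MonsterX.MainPack Cfsg.Agent.MonsterU
open Cfsg.Agent.MonsterP Cfsg.Agent.MonsterN Cfsg.Agent.PreUniq Cfsg.Agent.PreUniqB
open Cfsg.Agent.LThreeMB (KChart.Cent KChart.pi KChart.chart fr)
open Cfsg.Agent.MonsterX.MainBasic Cfsg.Agent.MonsterX.MainSimple Cfsg.Agent.MonsterX.Model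
open Cfsg.Agent.CpAutBFive
open Subgroup (centralizer mem_centralizer_singleton_iff center mem_inf)

universe u

/-- in the Baby Monster -/
theorem exists_baby : ∃ y : Spor.BabyMonster, orderOf y = 3 ∧
    centralizer (pCore 3 ↥(centralizer ({y} : Set Spor.BabyMonster)) : Set ↥(centralizer ({y} : Set Spor.BabyMonster))) ≤
      pCore 3 ↥(centralizer ({y} : Set Spor.BabyMonster)) := by
  have h3 : Fact (Nat.Prime 3) := ⟨Nat.prime_three⟩
  have hfin : Finite ↥InstData.M.G := Cfsg.Agent.MFive.Row.finite_model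
  have hs : IsSimpleGroup ↥InstData.M.G := MFive.Row.simple_model
  have h := KChart.chart KDone.lft Cfsg.Agent.MFive.Row.hc
  have htr := LThreeMB.KPair.trNe KDone.lft MFive.Row.hc (LThreeMBTr.traceNe KDone.lft LThreeMBTr.TensK.tens)
  have hp := LThreeMB.KPair.hasPair KDone.lft MFive.Row.hc LThreeB.Row.second LThreeMB.COct.octPair
  obtain ⟨x, t₀, hx, hfr, ht₀, ht₀x, ht₀n⟩ := exists_inv h LThreeMB.CoOneFin.coOne htr hp
  obtain ⟨T, hTT, hT1, hTn, R, hR, hRp, hRs, hV⟩ := zero Cfsg.Agent.MFive.Row.FT KDone.lft MFive.Row.hc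
    LThreeMB.CoOneFin.coOne htr hp Cfsg.Agent.BpSpor.MThree.card_model hx hfr ht₀ ht₀x ht₀n
  obtain ⟨t, ht, hto, q, hq, hqk⟩ := H828.BThree.cover
  -- `T` is conjugate to `t`
  have hTT' : (T : ↥InstData.M.G) * T = 1 := congrArg Subtype.val hTT
  have hT1' : (T : ↥InstData.M.G) ≠ 1 := fun h1 => hT1 (Subtype.ext h1)
  have hconj : IsConj RowB.t (T : ↥InstData.M.G) := by
    rcases LitFin.all.classes (T : ↥InstData.M.G) hTT' hT1' with ⟨g, hg⟩ | ⟨g, hg⟩
    · exfalso
      refine hTn g⁻¹ ?_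
      have hz : KDone.K.z = zG LitFin.all.hG := Subtype.ext KDone.lnk.z_eq.symm
      calc g⁻¹ * (T : ↥InstData.M.G) * g⁻¹⁻¹ = g⁻¹ * (g * zG LitFin.all.hG * g⁻¹) * g := by rw [hg, inv_inv]
        _ = zG LitFin.all.hG := by group
        _ = KDone.K.z := hz.symm
    · exact isConj_iff.2 ⟨g, hg⟩
  obtain ⟨g, hg⟩ := isConj_iff.1 (hconj.symm.trans ht)
  -- `C(T) → C(t)`
  have hmem : ∀ c : ↥(centralizer ({(T : ↥InstData.M.G)} : Set ↥InstData.M.G)), g * (c : ↥InstData.M.G) * g⁻¹ ∈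
      centralizer ({t} : Set ↥InstData.M.G) := by
    intro c
    have h1 : (c : ↥InstData.M.G) * T = T * c := mem_centralizer_singleton_iff.1 c.2
    rw [mem_centralizer_singleton_iff, ← hg]
    calc g * (c : ↥InstData.M.G) * g⁻¹ * (g * T * g⁻¹) = g * (c * T) * g⁻¹ := by group
      _ = g * (T * c) * g⁻¹ := by rw [h1]
      _ = _ := by group
  let j : ↥(centralizer ({(T : ↥InstData.M.G)} : Set ↥InstData.M.G)) →* ↥(centralizer ({t} : Set ↥InstData.M.G)) :=
    ((MulAut.conj g).toMonoidHom.comp (Subgroup.subtype _)).codRestrict _ hmem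
  have hj : ∀ c, (j c : ↥InstData.M.G) = g * c * g⁻¹ := fun c => rfl
  refine H393.BF.constr_quot (by decide) (x := (x : ↥InstData.M.G)) (by rw [Subgroup.orderOf_coe, hx]) hTT hT1 (q.comp j)
    ?_ ?_ hR hRp hRs hV
  · intro y
    obtain ⟨c, rfl⟩ := hq y
    refine ⟨⟨g⁻¹ * c * g, ?_⟩, ?_⟩
    · have h1 : (c : ↥InstData.M.G) * t = t * c := mem_centralizer_singleton_iff.1 c.2
      rw [mem_centralizer_singleton_iff]
      calc g⁻¹ * (c : ↥InstData.M.G) * g * T = g⁻¹ * (c * (g * T * g⁻¹)) * g := by group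
        _ = g⁻¹ * ((g * T * g⁻¹) * c) * g := by rw [hg, h1]
        _ = _ := by group
    · show q (j _) = q c
      congr 1
      apply Subtype.ext
      rw [hj]
      group
  · intro c
    show q (j c) = 1 ↔ _
    rw [hqk, hj, ← hg]
    constructor
    · rintro (h1 | h1)
      · left
        calc (c : ↥InstData.M.G) = g⁻¹ * (g * c * g⁻¹) * g := by group
          _ = 1 := by rw [h1]; group
      · right
        calc (c : ↥InstData.M.G) = g⁻¹ * (g * c * g⁻¹) * g := by group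
          _ = T := by rw [h1]; group
    · rintro (h1 | h1)
      · left
        rw [h1]
        group
      · right
        rw [h1]

/-- **S4555/S4559: the Baby Monster, `p = 3`.** -/
theorem b_three {K : Type u} [Group K] (h : Spor.IsoB K) (hNB : H7.NBp.NB 3 K) : H620.PNorm.VOrdP 3 K := by
  have h3 : Fact (Nat.Prime 3) := ⟨Nat.prime_three⟩
  obtain ⟨e⟩ := h
  have hfin : Finite Spor.BabyMonster :=
    Nat.finite_of_card_ne_zero (by rw [(S1704.result : IsB Spor.BabyMonster).2]; norm_num)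
  obtain ⟨y, hy, hc⟩ := exists_baby
  exact (H316.VZ.vOrdP_of_oneB (H7.NBp.NB.iso e hNB) hy fun M hM => H316.VZ.oneB_of_constrained hM hc).mulEquiv e.symm

end Cfsg.Agent.H316.VZ.BThree
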