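import Cfsg.Agent.H492.IMHe
import Cfsg.Agent.H794.MonSevenLoc

/-!
# `He`: no involution of `C(y)` inverts a 7-element of `C(y)` outside of `⟨y⟩`, `|C(y)| = 1176` (helper316)
-/

set_option autoImplicit false
set_option maxRecDepth 100000

namespace Cfsg.Agent.H316.VZ.HeInv

open Subgroup Cfsg

theorem abs {C : Type*} [Group C] [Finite C] {Y H A y1 y2 : C} (hY : orderOf Y = 7) (hYc : ∀ c : C, c * Y = Y * c)
    {m : ℕ} (hcard : Nat.card C = 7 ^ 2 * m) (hm : m = 12 ∨ m = 24) (h1 : y1 ^ 7 = 1) (h2 : y2 ^ 7 = 1)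
    (hne : y1 * y2 ≠ y2 * y1) (hAA : A * A = 1) (hinv : A * H * A⁻¹ = H⁻¹) {k : ℕ} (hk : H ^ 7 ^ k = 1) :
    H ∈ zpowers Y := by
  have h7 : Fact (Nat.Prime 7) := ⟨by norm_num⟩
  by_contra hH
  have hm7 : ¬ 7 ∣ m := by rcases hm with rfl | rfl <;> decide
  have hfac : (Nat.card C).factorization 7 = 2 := by
    have hm0 : m ≠ 0 := by rcases hm with rfl | rfl <;> decide
    rw [hcard, Nat.factorization_mul (by norm_num) hm0, Nat.factorization_pow]
    simp [Nat.factorization_eq_zero_of_not_dvd hm7, Nat.Prime.factorization_self h7.out]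
  have hYP : IsPGroup 7 ↥(zpowers Y) := IsPGroup.of_card (n := 1) (by rw [Nat.card_zpowers, hY, pow_one])
  have hP0 : IsPGroup 7 ↥(zpowers Y ⊔ zpowers H) :=
    H794.MonSevenLoc.isPGroup_two (hYc H) hYP (H794.MonSevenLoc.isPGroup_zpowers hk)
  have hsq : 7 ^ 2 ∣ Nat.card ↥(zpowers Y ⊔ zpowers H) :=
    H794.MonSevenLoc.sq_dvd_of_notMem hP0 hY (mem_sup_left (mem_zpowers Y)) (mem_sup_right (mem_zpowers H)) hH
  obtain ⟨P, hP⟩ := hP0.exists_le_sylow
  have hPc : Nat.card ↥(P : Subgroup C) = 7 ^ 2 := by rw [P.card_eq_multiplicity, hfac]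
  have hPe : zpowers Y ⊔ zpowers H = (P : Subgroup C) := by
    refine Subgroup.eq_of_le_of_card_ge hP ?_
    rw [hPc]
    exact Nat.le_of_dvd Nat.card_pos hsq
  have hA1 : A ≠ 1 := by
    rintro rfl
    rw [one_mul, inv_one, mul_one] at hinv
    apply hH
    have h3 : H ^ 2 = 1 := by
      calc H ^ 2 = H * H := pow_two H
        _ = H⁻¹ * H := by rw [← hinv]
        _ = 1 := inv_mul_cancel H
    have h4 : H ^ Nat.gcd 2 (7 ^ k) = 1 := pow_gcd_eq_one.2 ⟨h3, hk⟩
    have h5 : Nat.gcd 2 (7 ^ k) = 1 := (Nat.Coprime.pow_right k (by decide) : Nat.Coprime 2 (7 ^ k))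
    rw [h5, pow_one] at h4
    rw [h4]
    exact one_mem _
  have hAn : A ∈ normalizer ((P : Subgroup C) : Set C) := by
    refine Transfer.FusionBasic.mem_normalizer_of_conj_mem fun g hg => ?_
    rw [← hPe] at hg ⊢
    have h3 : (zpowers Y ⊔ zpowers H) ≤ (zpowers Y ⊔ zpowers H).comap (MulAut.conj A).toMonoidHom := by
      rw [sup_le_iff, zpowers_le, zpowers_le]
      constructor
      · rw [mem_comap]
        show A * Y * A⁻¹ ∈ zpowers Y ⊔ zpowers H
        rw [hYc A, mul_inv_cancel_right]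
        exact mem_sup_left (mem_zpowers Y)
      · rw [mem_comap]
        show A * H * A⁻¹ ∈ zpowers Y ⊔ zpowers H
        rw [hinv]
        exact inv_mem (mem_sup_right (mem_zpowers H))
    exact h3 hg
  set N := normalizer ((P : Subgroup C) : Set C) with hN
  have h49 : 7 ^ 2 ∣ Nat.card ↥N := by
    rw [← hPc]
    exact Subgroup.card_dvd_of_le le_normalizer
  have h2N : 2 ∣ Nat.card ↥N := by
    have h3 : orderOf (⟨A, hAn⟩ : ↥N) = 2 := by
      refine orderOf_eq_prime (Subtype.ext ?_) fun h => hA1 (congrArg Subtype.val h)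
      show A ^ 2 = 1
      rw [pow_two, hAA]
    rw [← h3]
    exact orderOf_dvd_natCard _
  obtain ⟨j, hj⟩ := Nat.Coprime.mul_dvd_of_dvd_of_dvd (by norm_num : Nat.Coprime (7 ^ 2) 2) h49 h2N
  have hidx := N.card_mul_index
  rw [hj, hcard] at hidx
  have hsy : Nat.card (Sylow 7 C) = N.index := Sylow.card_eq_index_normalizer P
  have hmod := card_sylow_modEq_one 7 C
  rw [hsy] at hmod
  have h3 : (2 * j) * N.index = m := by
    have h4 : 7 ^ 2 * ((2 * j) * N.index) = 7 ^ 2 * m := by rw [← hidx]; ring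
    exact Nat.eq_of_mul_eq_mul_left (by norm_num) h4
  have hd : N.index ∣ 12 := by
    rcases hm with rfl | rfl
    · exact Dvd.intro_left _ h3
    · have h4 : j * N.index = 12 := by
        have h5 : 2 * (j * N.index) = 2 * 12 := by rw [← mul_assoc, h3]
        exact Nat.eq_of_mul_eq_mul_left (by norm_num) h5
      exact Dvd.intro_left _ h4
  have h1' : N.index = 1 := by
    have h4 := Nat.le_of_dvd (by norm_num) hd
    obtain ⟨n, hn⟩ : ∃ n, n = N.index := ⟨_, rfl⟩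
    rw [← hn] at hmod hd h4 ⊢
    unfold Nat.ModEq at hmod
    interval_cases n <;> omega
  have hss : Nat.card (Sylow 7 C) = 1 := by rw [hsy]; exact h1'
  have hsub : Subsingleton (Sylow 7 C) := (Nat.card_eq_one_iff_unique.1 hss).1
  have hmem : ∀ y : C, y ^ 7 = 1 → y ∈ (P : Subgroup C) := by
    intro y hy
    obtain ⟨P', hP'⟩ := (H794.MonSevenLoc.isPGroup_zpowers (p := 7) (k := 1) (by rw [pow_one]; exact hy) :
      IsPGroup 7 ↥(zpowers y)).exists_le_sylow
    rw [Subsingleton.elim P' P] at hP'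
    exact hP' (mem_zpowers y)
  have hcomm := IsPGroup.isMulCommutative_of_card_eq_prime_sq (p := 7) hPc
  apply hne
  exact congrArg Subtype.val (hcomm.is_comm.comm (⟨y1, hmem y1 h1⟩ : ↥(P : Subgroup C)) ⟨y2, hmem y2 h2⟩)

open Cfsg.Spor.He (Gen)
open Cfsg.Agent.SporadicB.HePerm (act wd)
open Cfsg.Agent.FixBN.HeStab Cfsg.Agent.KFacts.He.Lv Cfsg.Agent.CpAutHe.Cnt
open Cfsg.Agent.H492.IMHeCnt Cfsg.Agent.H492.IMHeDat Cfsg.Agent.H492.IMTools
open Cfsg.Agent.H492.IMHe (o1 o2 o4 o7 oy7 oz73 pair arith7 dvd_cent Z73)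

theorem inv_ba : wd [.a, .b] = (wd [.b, .a])⁻¹ := by
  apply eq_inv_of_mul_eq_one_left
  rw [← wd_append]
  exact eq_of_chkB (w := []) (by decide +kernel)

theorem conj_ne : wd YB7 * (wd [.b, .a] * wd YB7 * (wd [.b, .a])⁻¹) ≠
    (wd [.b, .a] * wd YB7 * (wd [.b, .a])⁻¹) * wd YB7 := by
  rw [← inv_ba, ← wd_append, ← wd_append, ← wd_append, ← wd_append]
  exact ne_of_act 0 (by decide +kernel) (by decide +kernel)

/-- `|C(wd XB7)| = 49 m` -/
theorem card_cent : ∃ m : ℕ, Nat.card ↥(centralizer ({wd XB7} : Set Cfsg.Spor.He)) = 7 ^ 2 * m ∧ (m = 12 ∨ m = 24) := by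
  have fp7 : Fact (Nat.Prime 7) := ⟨by norm_num⟩
  have hfin : Finite Cfsg.Spor.He := Nat.finite_of_card_ne_zero (by rw [card_he]; norm_num)
  have hp := pair (p := 7) XB7 YB7 _ o7 oy7 (by decide +kernel) (by decide +kernel)
    (by norm_num) qB7
  have hle : Nat.card (centralizer ({wd XB7} : Set Cfsg.Spor.He)) ≤ 1176 :=
    Cfsg.Agent.CpAutHe.Bound.card0
  have h3 : 3 ∣ Nat.card (centralizer ({wd XB7} : Set Cfsg.Spor.He)) :=
    dvd_cent (comm_of_chk (by decide +kernel)) oz73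
  have h4 : 4 ∣ Nat.card (centralizer ({wd XB7} : Set Cfsg.Spor.He)) :=
    dvd_cent (comm_of_chk (by decide +kernel)) o4
  have h0 : 0 < Nat.card (centralizer ({wd XB7} : Set Cfsg.Spor.He)) := Nat.card_pos
  obtain ⟨m, hm⟩ := hp.1
  exact ⟨m, hm, arith7 hle h3 h4 h0 hm⟩

/-- **No involution of `C(y)` inverts a 7-element outside of `⟨y⟩`.** -/
theorem main {A H : Spor.He} (hA : A * wd XB7 = wd XB7 * A) (hH : H * wd XB7 = wd XB7 * H) (hAA : A * A = 1)
    (hinv : A * H * A⁻¹ = H⁻¹) {k : ℕ} (hk : H ^ 7 ^ k = 1) : H ∈ zpowers (wd XB7) := by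
  have hfin : Finite Cfsg.Spor.He := Nat.finite_of_card_ne_zero (by rw [card_he]; norm_num)
  obtain ⟨m, hc, hm⟩ := card_cent
  have hba : wd [.b, .a] * wd XB7 = wd XB7 * wd [.b, .a] := comm_of_chk (by decide +kernel)
  have hY : wd YB7 * wd XB7 = wd XB7 * wd YB7 := comm_of_chk (by decide +kernel)
  set C := centralizer ({wd XB7} : Set Spor.He) with hC
  have mem : ∀ {g : Spor.He}, g * wd XB7 = wd XB7 * g → g ∈ C := fun h => mem_centralizer_singleton_iff.2 h
  have hba' : (wd [.b, .a])⁻¹ * wd XB7 = wd XB7 * (wd [.b, .a])⁻¹ := (show Commute _ _ from hba).inv_left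
  have hYY : (wd [.b, .a] * wd YB7 * (wd [.b, .a])⁻¹) * wd XB7 = wd XB7 * (wd [.b, .a] * wd YB7 * (wd [.b, .a])⁻¹) :=
    ((show Commute (wd [.b, .a]) (wd XB7) from hba).mul_left (show Commute (wd YB7) (wd XB7) from hY)).mul_left
      (show Commute _ _ from hba')
  have h7 : wd YB7 ^ 7 = 1 := by rw [← oy7, pow_orderOf_eq_one]
  have h1 := abs (C := ↥C) (Y := ⟨wd XB7, mem rfl⟩) (H := ⟨H, mem hH⟩) (A := ⟨A, mem hA⟩) (y1 := ⟨wd YB7, mem hY⟩)
    (y2 := ⟨_, mem hYY⟩) (by rw [Subgroup.orderOf_mk]; exact o7)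
    (fun c => Subtype.ext (mem_centralizer_singleton_iff.1 c.2)) hc hm (Subtype.ext h7)
    (Subtype.ext (by
      show (wd [.b, .a] * wd YB7 * (wd [.b, .a])⁻¹) ^ 7 = 1
      rw [conj_pow, h7, mul_one, mul_inv_cancel]))
    (fun h => conj_ne (congrArg Subtype.val h)) (Subtype.ext hAA) (Subtype.ext hinv) (k := k) (Subtype.ext hk)
  obtain ⟨i, hi⟩ := mem_zpowers_iff.1 h1
  exact mem_zpowers_iff.2 ⟨i, congrArg Subtype.val hi⟩

/-- an involution in `C(y)` -/
theorem exists_inv : ∃ A : Spor.He, A * wd XB7 = wd XB7 * A ∧ A * A = 1 ∧ A ≠ 1 := by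
  have hba : wd [.b, .a] * wd XB7 = wd XB7 * wd [.b, .a] := comm_of_chk (by decide +kernel)
  refine ⟨wd [.b, .a] ^ 2, (show Commute _ _ from hba).pow_left 2, ?_, ?_⟩
  · rw [← pow_add]
    have h := pow_orderOf_eq_one (wd [.b, .a])
    rwa [o4] at h
  · intro h
    have h1 := orderOf_dvd_of_pow_eq_one h
    rw [o4] at h1
    norm_num at h1

end Cfsg.Agent.H316.VZ.HeInv
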