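import Cfsg.Agent.H316.VZ.NN
import Cfsg.Agent.H592.Defect
import Cfsg.Agent.S0912
import Cfsg.Agent.S0917
import Cfsg.Agent.S0923
import Cfsg.Agent.Lib.Cores

/-!
# Zeros at `p`-elements `z` with a normal `p`-subgroup `R` of `C(z)` (helper316)

`NZ M u` and no conjugate of `u` centralises `R`, `R` a `p`-subgroup normal in `C_K(z)`: some irreducible character of `K`
vanishes at `z` (Brauer's second main theorem; the defect groups of the blocks of `C(z)` contain `R`).

* `eq_zero_of_not_induced` : no block of `C(z)` induces the block of `χ`: `χ(z) = 0`;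
* `vz_of_nz_normal` : the criterion.
-/

set_option autoImplicit false

namespace Cfsg.Agent.H316.VZ

open Cfsg Subgroup Cfsg.Agent.Blocks.Basic Cfsg.Agent.Blocks.Local

universe u

variable {K : Type u} [Group K]

/-- Brauer's second main theorem, no block of `C(z)` inducing the block of `χ`. -/
theorem eq_zero_of_not_induced [Finite K] {p : ℕ} [Fact p.Prime] {M : Ideal AlgInt} (hM : IsPModular p M)
    (χ : IrrCharacter K) {z : K} (hz : ∃ j : ℕ, orderOf z = p ^ j)
    (h : ∀ b : Set (IrrCharacter (centralizer ({z} : Set K))), IsPBlock M b →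
      ¬ IsInducedBlock M (centralizer ({z} : Set K)) b (blockOf M (χ : K → ℂ))) : (χ : K → ℂ) z = 0 := by
  classical
  have := isPrime_of_isPModular hM
  set C := centralizer ({z} : Set K) with hC
  let _ := Fintype.ofFinite C
  have : Finite (IrrCharacter C) := Characters.Core.finite_irr
  let _ := Fintype.ofFinite (IrrCharacter C)
  obtain ⟨θ, hθ⟩ : ∃ θ : C → ℂ, θ = fun c : C => (χ : K → ℂ) (z * (c : K)) := ⟨_, rfl⟩
  have hcl : IsClassFunction C θ := by
    intro b a
    have h2 := Characters.Core.isIrr_isClassFunction χ.2 (z * (b : K)) (a : K)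
    have h3 : (a : K) * (z * b) * (a : K)⁻¹ = z * ((a * b * a⁻¹ : C) : K) := by
      have h4 : (a : K) * z = z * a := mem_centralizer_singleton_iff.1 a.2
      calc (a : K) * (z * b) * (a : K)⁻¹ = ((a : K) * z) * b * (a : K)⁻¹ := by group
        _ = z * ((a * b * a⁻¹ : C) : K) := by
            rw [h4]
            push_cast
            group
    rw [hθ]
    show (χ : K → ℂ) (z * ((a * b * a⁻¹ : C) : K)) = (χ : K → ℂ) (z * (b : K))
    rw [← h3]
    exact h2
  have h2 := congrFun (Characters.Core.classFunction_eq_sum hcl) 1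
  rw [Finset.sum_apply] at h2
  obtain ⟨F, hF⟩ : ∃ F : IrrCharacter C → ℂ, F = fun ψ : IrrCharacter C => classInner θ (ψ : C → ℂ) * (ψ : C → ℂ) 1 := ⟨_, rfl⟩
  have hsum : θ 1 = ∑ ψ : IrrCharacter C, F ψ := by
    rw [h2, hF]
    rfl
  have hblk : ∀ ψ₀ : IrrCharacter C, ∑ ψ ∈ Finset.univ.filter (fun ψ : IrrCharacter C =>
      blockOf M (ψ : C → ℂ) = blockOf M (ψ₀ : C → ℂ)), F ψ = 0 := by
    intro ψ₀
    have h1 := S0923.result p M hM z hz (blockOf M (χ : K → ℂ)) (isPBlock_blockOf χ) χ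
      (mem_blockOf_self χ) _ (isPBlock_blockOf ψ₀) (h _ (isPBlock_blockOf ψ₀)) 1 (by
        rw [orderOf_one]
        exact fun hh => (Fact.out : p.Prime).one_lt.not_ge (Nat.le_of_dvd one_pos hh))
    have h3 : ∑ᶠ ψ ∈ blockOf M (ψ₀ : C → ℂ), F ψ = 0 := by
      rw [hF, hθ]
      exact h1
    rw [← h3]
    symm
    rw [finsum_mem_eq_finite_toFinset_sum _ (Set.toFinite _)]
    refine Finset.sum_congr ?_ fun _ _ => rfl
    ext ψ
    rw [Set.Finite.mem_toFinset, Finset.mem_filter]
    constructor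
    · intro hψ
      exact ⟨Finset.mem_univ _, (blockOf_eq_of_sameBlock (mem_blockOf.1 hψ)).symm⟩
    · rintro ⟨-, hψ⟩
      rw [← hψ]
      exact mem_blockOf_self ψ
  have h0 : θ 1 = 0 := by
    rw [hsum, ← Finset.sum_fiberwise_of_maps_to (s := Finset.univ) (t := Finset.univ.image
      (fun ψ : IrrCharacter C => blockOf M (ψ : C → ℂ))) (g := fun ψ : IrrCharacter C => blockOf M (ψ : C → ℂ))
      (fun ψ _ => Finset.mem_image_of_mem _ (Finset.mem_univ ψ))]
    refine Finset.sum_eq_zero fun b hb => ?_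
    obtain ⟨ψ₀, -, rfl⟩ := Finset.mem_image.1 hb
    exact hblk ψ₀
  rw [hθ] at h0
  have h5 : (χ : K → ℂ) (z * ((1 : C) : K)) = 0 := h0
  rwa [OneMemClass.coe_one, mul_one] at h5

/-- A block `b` of `C(z)` inducing the block of `χ`: the normal `p`-subgroups `R` of `C(z)` are centralised by a conjugate
of `u` if `ω_χ(u) ≠ 0`. -/
theorem exists_conj_centralize [Finite K] {p : ℕ} [Fact p.Prime] {M : Ideal AlgInt} (hM : IsPModular p M)
    {χ : IrrCharacter K} {u : K} (hu : ¬ MemLocalIdeal M (centralChar (χ : K → ℂ) u)) {z : K}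
    (hz : ∃ j : ℕ, orderOf z = p ^ j) (hχ : (χ : K → ℂ) z ≠ 0) {R : Subgroup K} (hR : IsPGroup p R)
    (hRC : R ≤ centralizer ({z} : Set K))
    (hn : ∀ c ∈ centralizer ({z} : Set K), ∀ r ∈ R, c * r * c⁻¹ ∈ R) :
    ∃ x : K, IsConj u x ∧ x ∈ centralizer (R : Set K) := by
  have := isPrime_of_isPModular hM
  by_contra hcon
  push Not at hcon
  refine hχ (eq_zero_of_not_induced hM χ hz fun b hb hind => ?_)
  obtain ⟨δ, hδ⟩ := H592.Defect.exists_defectGroup p hM hb
  have h1 := S0912.result p M hM b hb δ hδ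
  obtain ⟨E, hE, hle⟩ := S0917.result p M hM _ b hb _ (isPBlock_blockOf χ) hind δ hδ
  obtain ⟨x, hx, hxC, -⟩ := S0929.result p M hM _ (isPBlock_blockOf χ) E hE u
    ⟨χ, mem_blockOf_self χ, hu⟩
  refine hcon x hx ?_
  rw [mem_centralizer_iff]
  intro r hr
  have hN : (R.subgroupOf (centralizer ({z} : Set K))).Normal := by
    constructor
    intro a ha c
    rw [mem_subgroupOf] at ha ⊢
    exact hn c c.2 _ ha
  have h2 : R.subgroupOf (centralizer ({z} : Set K)) ≤ pCore p _ := Cfsg.Agent.Lib.Cores.le_pCore hN hR.comap_subtype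
  have h3 : r ∈ E := hle ⟨⟨r, hRC hr⟩, h1 (h2 (mem_subgroupOf.2 hr)), rfl⟩
  exact mem_centralizer_iff.1 hxC r h3

/-- **Criterion.** -/
theorem vz_of_nz_normal [Finite K] {p : ℕ} [Fact p.Prime] {M : Ideal AlgInt} (hM : IsPModular p M) {u : K}
    (h : NZ M u) {z : K} (hz : ∃ j : ℕ, orderOf z = p ^ j) {R : Subgroup K} (hR : IsPGroup p R)
    (hRC : R ≤ centralizer ({z} : Set K))
    (hn : ∀ c ∈ centralizer ({z} : Set K), ∀ r ∈ R, c * r * c⁻¹ ∈ R)
    (hu : ∀ (α : MulAut K) (x : K), IsConj u x → ∃ r ∈ R, x * α r ≠ α r * x) : H713.VZ K z := by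
  obtain ⟨χ, hχ⟩ := h
  refine ⟨χ, fun α => ?_⟩
  by_contra hne
  have hmap : (R.map α.toMonoidHom) ≤ centralizer ({α z} : Set K) := by
    rintro _ ⟨r, hr, rfl⟩
    rw [mem_centralizer_singleton_iff]
    show α r * α z = α z * α r
    rw [← map_mul, mem_centralizer_singleton_iff.1 (hRC hr), map_mul]
  obtain ⟨x, hx, hxC⟩ := exists_conj_centralize hM hχ (z := α z) (by rw [MulEquiv.orderOf_eq]; exact hz) hne
    (R := R.map α.toMonoidHom) (hR.map _) hmap (by
      rintro c hc _ ⟨r, hr, rfl⟩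
      refine ⟨α.symm c * r * (α.symm c)⁻¹, hn _ ?_ r hr, ?_⟩
      · rw [mem_centralizer_singleton_iff] at hc ⊢
        apply α.injective
        rw [map_mul, map_mul, MulEquiv.apply_symm_apply]
        exact hc
      · show α (α.symm c * r * (α.symm c)⁻¹) = c * α r * c⁻¹
        rw [map_mul, map_mul, map_inv, MulEquiv.apply_symm_apply])
  obtain ⟨r, hr, hne'⟩ := hu α x hx
  exact hne' (mem_centralizer_iff.1 hxC (α r) ⟨r, hr, rfl⟩).symm

/-- The criterion for a property of `u` invariant under isomorphisms: no element of order `n` centralises `R`. -/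
theorem vz_of_nz_order [Finite K] {p : ℕ} [Fact p.Prime] {M : Ideal AlgInt} (hM : IsPModular p M) {u : K}
    (h : NZ M u) {z : K} (hz : ∃ j : ℕ, orderOf z = p ^ j) {R : Subgroup K} (hR : IsPGroup p R)
    (hRC : R ≤ centralizer ({z} : Set K))
    (hn : ∀ c ∈ centralizer ({z} : Set K), ∀ r ∈ R, c * r * c⁻¹ ∈ R)
    (hu : ∀ x : K, orderOf x = orderOf u → ∃ r ∈ R, x * r ≠ r * x) : H713.VZ K z := by
  refine vz_of_nz_normal hM h hz hR hRC hn fun α x hx => ?_
  obtain ⟨r, hr, hne⟩ := hu (α.symm x) (by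
    rw [MulEquiv.orderOf_eq]
    obtain ⟨c, hc⟩ := isConj_iff.1 hx
    rw [← hc]
    exact MulEquiv.orderOf_eq (MulAut.conj c) u)
  refine ⟨r, hr, fun hc => hne ?_⟩
  apply α.injective
  rw [map_mul, map_mul, MulEquiv.apply_symm_apply]
  exact hc

end Cfsg.Agent.H316.VZ
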